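import Cfsg.Agent.H279.OZ.CoverK
import Cfsg.Agent.H279.OZ.PslZero
import Cfsg.Agent.H530.OZ.FourM

/-!
# S4842: the congruence for `POmega⁺_{2n}`, `n` even, from a prime of order `2(n-2)` (helper530)

* `kc_orth` : the congruence in the space `U × P`, `P` of dimension four and minus type.
-/

set_option autoImplicit false

namespace Cfsg.Agent.H530.OZ

open Module QuadraticMap Cfsg Subgroup
open Cfsg.Agent.LieClassical.OrthCore Cfsg.Agent.LieClassical.OrthTrans Cfsg.Agent.H890.SpParity
open Cfsg.Agent.H182.Sign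
open scoped commutatorElement

universe u

section lin

variable {F : Type*} [Field F] {U P : Type*} [AddCommGroup U] [Module F U] [AddCommGroup P] [Module F P]

/-- The block decomposition of the elements taking `z × 1` to `z' × 1`. -/
theorem block' [FiniteDimensional F U] [FiniteDimensional F P] {z z' : U ≃ₗ[F] U} (hz : ∀ v, z v = v → v = 0)
    (hz' : ∀ v, z' v = v → v = 0) {g : (U × P) ≃ₗ[F] (U × P)} (hc : g * zz P z = zz P z' * g) :
    ∃ (t : U ≃ₗ[F] U) (s : P ≃ₗ[F] P), g = t.prodCongr s := by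
  have hcc : ∀ (u : U) (p : P), g (z u, p) = (z' (g (u, p)).1, (g (u, p)).2) := fun u p =>
    LinearEquiv.congr_fun hc (u, p)
  have h1 : ∀ p : P, (g (0, p)).1 = 0 := by
    intro p
    have := congrArg Prod.fst (hcc 0 p)
    rw [map_zero] at this
    exact hz' _ this.symm
  have h2 : ∀ u : U, (g (u, 0)).2 = 0 := by
    intro u
    obtain ⟨v, hv⟩ : ∃ v, z v - v = u := by
      have hinj : Function.Injective ((z.toLinearMap - LinearMap.id : U →ₗ[F] U)) := by
        rw [injective_iff_map_eq_zero]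
        intro v hv
        exact hz v (sub_eq_zero.1 hv)
      exact (LinearMap.injective_iff_surjective.1 hinj) u
    have h3 : ((u, 0) : U × P) = (z v, 0) - (v, 0) := by
      rw [Prod.mk_sub_mk, hv, sub_zero]
    rw [h3, map_sub, hcc]
    exact sub_self _
  have hg : ∀ (u : U) (p : P), g (u, p) = ((g (u, 0)).1, (g (0, p)).2) := by
    intro u p
    have h3 : ((u, p) : U × P) = (u, 0) + (0, p) := by simp
    rw [h3, map_add]
    refine Prod.ext ?_ ?_
    · show (g (u, 0)).1 + (g (0, p)).1 = (g (u, 0)).1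
      rw [h1, add_zero]
    · show (g (u, 0)).2 + (g (0, p)).2 = (g (0, p)).2
      rw [h2, zero_add]
  let t : U →ₗ[F] U := (LinearMap.fst F U P).comp (g.toLinearMap.comp (LinearMap.inl F U P))
  let s : P →ₗ[F] P := (LinearMap.snd F U P).comp (g.toLinearMap.comp (LinearMap.inr F U P))
  have ht : Function.Injective t := by
    rw [injective_iff_map_eq_zero]
    intro u hu
    have h3 : g (u, 0) = 0 := Prod.ext hu (h2 u)
    rw [LinearEquiv.map_eq_zero_iff] at h3
    exact congrArg Prod.fst h3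
  have hs : Function.Injective s := by
    rw [injective_iff_map_eq_zero]
    intro p hp
    have h3 : g (0, p) = 0 := Prod.ext (h1 p) hp
    rw [LinearEquiv.map_eq_zero_iff] at h3
    exact congrArg Prod.snd h3
  refine ⟨LinearEquiv.ofInjectiveEndo t ht, LinearEquiv.ofInjectiveEndo s hs, ?_⟩
  ext p
  · exact congrArg Prod.fst (hg p.1 p.2)
  · exact congrArg Prod.snd (hg p.1 p.2)

/-- An element of `r`-power order of a space of dimension at most four. -/
theorem eq_one_of_order4 [Finite F] [Finite P] {r : ℕ} (hr : r.Prime) {d : ℕ} (hP : finrank F P = d)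
    (hq : ¬ r ∣ Nat.card F) (hq1 : ∀ i : ℕ, 0 < i → i ≤ d → ¬ r ∣ Nat.card F ^ i - 1)
    {s : P ≃ₗ[F] P} (hs : ∃ j : ℕ, s ^ (r ^ j) = 1) : s = 1 := by
  have := Fact.mk hr
  have hfd : FiniteDimensional F P := Module.Finite.of_finite
  obtain ⟨j, hj⟩ := hs
  have hrP : IsPGroup r (Subgroup.zpowers s) := by
    intro x
    obtain ⟨k, hk⟩ := Subgroup.mem_zpowers_iff.1 x.2
    refine ⟨j, Subtype.ext ?_⟩
    show (x : P ≃ₗ[F] P) ^ r ^ j = 1
    rw [← hk, ← zpow_natCast, ← zpow_mul, mul_comm, zpow_mul, zpow_natCast, hj, one_zpow]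
  have h1 := hrP.card_modEq_card_fixedPoints P
  have h2 : Nat.card (MulAction.fixedPoints (Subgroup.zpowers s) P) = Nat.card (fix s) := by
    refine Nat.card_congr (Equiv.subtypeEquivRight fun v => ?_)
    rw [MulAction.mem_fixedPoints]
    show _ ↔ v ∈ fix s
    rw [mem_fix]
    constructor
    · intro h
      exact h ⟨s, Subgroup.mem_zpowers s⟩
    · intro h x
      obtain ⟨k, hk⟩ := Subgroup.mem_zpowers_iff.1 x.2
      show (x : P ≃ₗ[F] P) v = v
      rw [← hk]
      have h3 : s ∈ MulAction.stabilizer (P ≃ₗ[F] P) v := h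
      exact (MulAction.stabilizer (P ≃ₗ[F] P) v).zpow_mem h3 k
  rw [h2, Module.natCard_eq_pow_finrank (K := F) (V := P), Module.natCard_eq_pow_finrank (K := F) (V := fix s)] at h1
  have hle := Submodule.finrank_le (fix s)
  have hF : 0 < Nat.card F := Nat.card_pos
  have h3 : finrank F (fix s) = finrank F P := by
    by_contra hne
    have hlt : finrank F (fix s) < finrank F P := lt_of_le_of_ne hle hne
    obtain ⟨i, hi⟩ : ∃ i, finrank F P = finrank F (fix s) + i := ⟨finrank F P - finrank F (fix s), by omega⟩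
    have h4 : r ∣ Nat.card F ^ finrank F P - Nat.card F ^ finrank F (fix s) :=
      (Nat.modEq_iff_dvd' (Nat.pow_le_pow_right hF hle)).1 h1.symm
    rw [hi, pow_add, ← Nat.mul_sub_one] at h4
    rcases (Nat.Prime.dvd_mul hr).1 h4 with h5 | h5
    · exact hq (hr.dvd_of_dvd_pow h5)
    · exact hq1 i (by omega) (by omega) h5
  have h4 : fix s = ⊤ := Submodule.eq_top_of_finrank_eq h3
  ext v
  have : v ∈ fix s := by rw [h4]; exact Submodule.mem_top
  exact mem_fix.1 this

/-- The extension by the identity on `U`. -/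
def ii (U : Type*) [AddCommGroup U] [Module F U] : (P ≃ₗ[F] P) →* ((U × P) ≃ₗ[F] (U × P)) where
  toFun s := (LinearEquiv.refl F U).prodCongr s
  map_one' := rfl
  map_mul' _ _ := rfl

theorem ii_apply (s : P ≃ₗ[F] P) (v : U × P) : ii U s v = (v.1, s v.2) := rfl

theorem ii_injective : Function.Injective (ii (F := F) (P := P) U) := by
  intro s s' h
  ext v
  exact congrArg Prod.snd (LinearEquiv.congr_fun h (0, v))

theorem ii_mem_O [Finite F] [Finite U] [Finite P] {Q : QuadraticForm F U} {Q' : QuadraticForm F P} {s : P ≃ₗ[F] P}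
    (hs : s ∈ O Q') : ii U s ∈ O (prodForm Q Q') := by
  intro v
  rw [prodForm_apply, prodForm_apply]
  show Q v.1 + Q' (s v.2) = _
  rw [hs]

/-- A perfect simple group has trivial center. -/
theorem center_bot_of_simple {G : Type*} [Group G] (hs : IsSimpleGroup G) (hp : commutator G = ⊤) : center G = ⊥ := by
  rcases hs.eq_bot_or_eq_top_of_normal (center G) inferInstance with h | h
  · exact h
  · exfalso
    have h1 : commutator G = ⊥ := by
      rw [commutator_def, Subgroup.commutator_eq_bot_iff_le_centralizer]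
      intro a _
      rw [Subgroup.mem_centralizer_iff]
      intro b _
      have h2 : a ∈ center G := h ▸ Subgroup.mem_top a
      exact Subgroup.mem_center_iff.1 h2 b
    rw [hp] at h1
    obtain ⟨a, ha⟩ := exists_ne (1 : G)
    have h2 : a ∈ (⊥ : Subgroup G) := h1 ▸ Subgroup.mem_top a
    exact ha (Subgroup.mem_bot.1 h2)

end lin

section main

variable {F : Type} [Field F] [Finite F] {U P L : Type} [AddCommGroup U] [Module F U] [Finite U] [AddCommGroup P]
  [Module F P] [Finite P] [Field L] [Algebra F L] {Q : QuadraticForm F U} {Q' : QuadraticForm F P}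
  {r : ℕ} {z : U ≃ₗ[F] U} {j : L →ₗ[F] U} {lam : L}

/-- **The congruence.** -/
theorem kc_orth {p : ℕ} [Fact p.Prime] [CharP F p] (hr : r.Prime) (hrp : r ≠ p) (hr2 : r ≠ 2)
    (hT : TorU Q r z j lam) (hnd : Nondeg (prodForm Q Q')) (hG : Good (prodForm Q Q')) (hUe : Even (finrank F U))
    (hPe : Even (finrank F P)) (hss : ∀ s : P ≃ₗ[F] P, (∃ i : ℕ, s ^ (r ^ i) = 1) → s = 1)
    (hzE : zz P z ∈ E (prodForm Q Q')) {S : Type u} [Group S] [Finite S] (π : E (prodForm Q Q') →* S)
    (hπ : Function.Surjective π)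
    (hker : ∀ k : E (prodForm Q Q'), k ∈ π.ker ↔ ∃ a : F, ∀ v, (k : (U × P) ≃ₗ[F] (U × P)) v = a • v)
    {N : Subgroup (P ≃ₗ[F] P)} (hN : FourM Q' N)
    (hnot : ¬ ((∀ x : E (prodForm Q Q'), Commute (⟨zz P z, hzE⟩ : E (prodForm Q Q')) x →
      (∀ s ∈ N, Commute (x : (U × P) ≃ₗ[F] (U × P)) (ii U s)) → (π x) ^ r = 1) ∧
      r ≤ finrank F (U × P) + 1)) {k : ℕ} (hk : Nat.card {v : N // ∃ i : ℕ, orderOf v = p ^ i} = p ^ k) :
    H730.OZ.Cong p r k S := by
  classical
  have hfr : Fact r.Prime := ⟨hr⟩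
  have hfdU : FiniteDimensional F U := Module.Finite.of_finite
  have hfdP : FiniteDimensional F P := Module.Finite.of_finite
  have hfinGL : Finite ((U × P) ≃ₗ[F] (U × P)) :=
    Finite.of_injective (fun g : (U × P) ≃ₗ[F] (U × P) => (g : U × P → U × P)) DFunLike.coe_injective
  have hfin : Finite (E (prodForm Q Q')) := inferInstance
  have hfinP : Finite (P ≃ₗ[F] P) :=
    Finite.of_injective (fun g : P ≃ₗ[F] P => (g : P → P)) DFunLike.coe_injective
  have hfinN : Finite N := inferInstance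
  have hchL : CharP L p := charP_of_injective_algebraMap (algebraMap F L).injective p
  set z' : E (prodForm Q Q') := ⟨zz P z, hzE⟩ with hz'
  have hfix := hT.fix_eq hr.one_lt
  -- the order of `z'`
  have hU1 : ∃ v : U, v ≠ 0 := ⟨j 1, fun h => one_ne_zero (hT.inj (h.trans (map_zero j).symm))⟩
  have hz'r : z' ^ r = 1 := by
    apply Subtype.ext
    show zz P z ^ r = 1
    rw [zz_pow, hT.pow_eq]
    rfl
  have hz'1 : z' ≠ 1 := by
    intro h
    obtain ⟨v, hv⟩ := hU1
    apply hv
    apply hfix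
    have h1 : zz P z = 1 := congrArg Subtype.val h
    exact congrArg Prod.fst (LinearEquiv.congr_fun h1 (v, 0))
  have hz'o : orderOf z' = r := orderOf_eq_prime hz'r hz'1
  have hmem : ∀ {x : E (prodForm Q Q')}, x ∈ Subgroup.centralizer ({z'} : Set (E (prodForm Q Q'))) ↔ Commute z' x := by
    intro x
    rw [Subgroup.mem_centralizer_singleton_iff]
    exact ⟨fun h => h.symm, fun h => h.symm⟩
  -- isometries of the blocks
  have hOb : ∀ {t : U ≃ₗ[F] U} {s : P ≃ₗ[F] P}, t.prodCongr s ∈ O (prodForm Q Q') → t ∈ O Q ∧ s ∈ O Q' := by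
    intro t s h
    constructor
    · intro v
      have h2 := h (v, 0)
      rw [prodForm_apply, prodForm_apply] at h2
      change Q (t v) + Q' (s 0) = Q v + Q' 0 at h2
      rw [map_zero, QuadraticMap.map_zero, add_zero, add_zero] at h2
      exact h2
    · intro v
      have h2 := h (0, v)
      rw [prodForm_apply, prodForm_apply] at h2
      change Q (t 0) + Q' (s v) = Q 0 + Q' v at h2
      rw [map_zero, QuadraticMap.map_zero, zero_add, zero_add] at h2
      exact h2
  -- the blocks
  have hblock : ∀ x : E (prodForm Q Q'), Commute z' x → ∃ (t : U ≃ₗ[F] U) (s : P ≃ₗ[F] P),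
      (x : (U × P) ≃ₗ[F] (U × P)) = t.prodCongr s ∧ t ∈ O Q ∧ s ∈ O Q' ∧ Commute t z := by
    intro x hx
    have h1 : Commute (x : (U × P) ≃ₗ[F] (U × P)) (z.prodCongr (LinearEquiv.refl F P)) :=
      (congrArg Subtype.val hx.eq).symm
    obtain ⟨t, s, hts⟩ := block hfix h1
    have h3 := hOb (hts ▸ E_le_O x.2)
    refine ⟨t, s, hts, h3.1, h3.2, ?_⟩
    ext v
    have h2 := LinearEquiv.congr_fun h1.eq (v, 0)
    rw [hts] at h2
    exact congrArg Prod.fst h2
  choose! tt ss hts htO hsO htz using hblock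
  -- powers
  have hpw : ∀ (x : E (prodForm Q Q')), Commute z' x → ∀ k : ℕ, x ^ k = 1 → tt x ^ k = 1 ∧ ss x ^ k = 1 := by
    intro x hx k hk
    have h1 : (x : (U × P) ≃ₗ[F] (U × P)) ^ k = 1 := congrArg Subtype.val hk
    have h2 : ∀ k : ℕ, (x : (U × P) ≃ₗ[F] (U × P)) ^ k = (tt x ^ k).prodCongr (ss x ^ k) := by
      intro k
      induction k with
      | zero => rfl
      | succ k ih =>
        rw [pow_succ, ih, hts x hx]
        rfl
    rw [h2] at h1
    constructor
    · ext v
      exact congrArg Prod.fst (LinearEquiv.congr_fun h1 (v, 0))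
    · ext v
      exact congrArg Prod.snd (LinearEquiv.congr_fun h1 (0, v))
  have hex : ∀ x : E (prodForm Q Q'), Commute z' x → ∃ a : L, (∀ l, tt x (j l) = j (a * l)) ∧ (a = 1 → tt x = 1) ∧
      (a ≠ 1 → ∀ v, tt x v = v → v = 0) := fun x hx => hT.cen _ (htO x hx) (htz x hx)
  choose! aa haa haa1 haa2 using hex
  have haa0 : ∀ x : E (prodForm Q Q'), Commute z' x → aa x ≠ 0 := by
    intro x hx h0
    have h4 := haa x hx 1
    rw [h0, zero_mul, map_zero, LinearEquiv.map_eq_zero_iff] at h4
    exact one_ne_zero (hT.inj (h4.trans (map_zero j).symm))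
  have hmul : ∀ x y : E (prodForm Q Q'), Commute z' x → Commute z' y → tt (x * y) = tt x * tt y := by
    intro x y hx hy
    ext v
    have h1 := hts (x * y) (hx.mul_right hy)
    have h2 : ((x * y : E (prodForm Q Q')) : (U × P) ≃ₗ[F] (U × P)) = (x : (U × P) ≃ₗ[F] (U × P)) * y := rfl
    rw [h2, hts x hx, hts y hy] at h1
    exact (congrArg Prod.fst (LinearEquiv.congr_fun h1 (v, 0))).symm
  have hamul : ∀ x y : E (prodForm Q Q'), Commute z' x → Commute z' y → aa (x * y) = aa x * aa y := by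
    intro x y hx hy
    have h1 := haa (x * y) (hx.mul_right hy) 1
    rw [hmul x y hx hy, LinearEquiv.mul_apply, haa y hy, haa x hx] at h1
    have h2 := hT.inj h1
    rw [mul_one, mul_one] at h2
    exact h2.symm
  let τ : Subgroup.centralizer ({z'} : Set (E (prodForm Q Q'))) →* Lˣ :=
    MonoidHom.mk' (fun x => Units.mk0 (aa x) (haa0 x (hmem.1 x.2))) (fun x y => Units.ext (by
      show aa (x * y : E (prodForm Q Q')) = aa x * aa y
      exact hamul _ _ (hmem.1 x.2) (hmem.1 y.2)))
  have hss' : ∀ x : E (prodForm Q Q'), Commute z' x → (∃ i : ℕ, x ^ (r ^ i) = 1) → ss x = 1 := by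
    rintro x hx ⟨i, hi⟩
    exact hss _ ⟨i, (hpw x hx _ hi).2⟩
  have hone : ∀ x : E (prodForm Q Q'), Commute z' x → tt x = 1 → ss x = 1 → x = 1 := by
    intro x hx h1 h2
    apply Subtype.ext
    rw [hts x hx, h1, h2]
    rfl
  -- the kernel
  have hkc : ∀ k ∈ π.ker, ∀ h : E (prodForm Q Q'), k * h = h * k := by
    intro k hk h
    obtain ⟨a, ha⟩ := (hker k).1 hk
    apply Subtype.ext
    ext v
    · show ((k : (U × P) ≃ₗ[F] (U × P)) ((h : (U × P) ≃ₗ[F] (U × P)) v)).1 = _
      rw [ha]
      show _ = ((h : (U × P) ≃ₗ[F] (U × P)) ((k : (U × P) ≃ₗ[F] (U × P)) v)).1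
      rw [ha, map_smul]
    · show ((k : (U × P) ≃ₗ[F] (U × P)) ((h : (U × P) ≃ₗ[F] (U × P)) v)).2 = _
      rw [ha]
      show _ = ((h : (U × P) ≃ₗ[F] (U × P)) ((k : (U × P) ≃ₗ[F] (U × P)) v)).2
      rw [ha, map_smul]
  have hk2 : ∀ k ∈ π.ker, (k ^ 2 = 1) ∧ (p = 2 → k = 1) := by
    intro k hk
    obtain ⟨a, ha⟩ := (hker k).1 hk
    -- a vector with nonzero value
    obtain ⟨w, hw⟩ : ∃ w : U × P, prodForm Q Q' w ≠ 0 := by
      by_contra hcon
      push Not at hcon
      obtain ⟨v, hv⟩ := hU1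
      apply hv
      have h1 : ((v, 0) : U × P) = 0 := hnd _ fun y => by
        rw [QuadraticMap.polar, hcon, hcon, hcon, sub_zero, sub_zero]
      exact congrArg Prod.fst h1
    have h1 := E_le_O k.2 w
    rw [ha, QuadraticMap.map_smul, smul_eq_mul] at h1
    have h2 : a * a = 1 := by
      apply mul_right_cancel₀ hw
      rw [h1, one_mul]
    constructor
    · apply Subtype.ext
      show (k : (U × P) ≃ₗ[F] (U × P)) ^ 2 = 1
      ext v
      · rw [pow_two, LinearEquiv.mul_apply, ha, ha, smul_smul, h2, one_smul]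
        rfl
      · rw [pow_two, LinearEquiv.mul_apply, ha, ha, smul_smul, h2, one_smul]
        rfl
    · rintro rfl
      have h3 : a = 1 := by
        have h4 : (a - 1) ^ 2 = 0 := by
          rw [sub_pow_char, one_pow, pow_two, h2, sub_self]
        exact sub_eq_zero.1 (pow_eq_zero_iff two_ne_zero |>.1 h4)
      apply Subtype.ext
      ext v
      · rw [ha, h3, one_smul]
        rfl
      · rw [ha, h3, one_smul]
        rfl
  set c : ℕ := if p = 2 then 1 else 2 with hcdef
  have hcc : ∀ k ∈ π.ker, k ^ c = 1 := by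
    intro k hk
    rw [hcdef]
    split_ifs with hp2
    · rw [pow_one]; exact (hk2 k hk).2 hp2
    · exact (hk2 k hk).1
  have hpp : p.Prime := Fact.out
  have hcr : c.Coprime r := by
    rw [hcdef]
    split_ifs with hp2
    · exact Nat.coprime_one_left r
    · exact (Nat.coprime_primes Nat.prime_two hr).2 (Ne.symm hr2)
  have hcp : c.Coprime p := by
    rw [hcdef]
    split_ifs with hp2
    · exact Nat.coprime_one_left p
    · exact (Nat.coprime_primes Nat.prime_two hpp).2 (Ne.symm hp2)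
  -- the group `K`
  have hNE : N.map (ii U) ≤ E (prodForm Q Q') := by
    rw [← hG.commutator_eq_E]
    nth_rw 1 [← hN.perf]
    rw [Subgroup.map_commutator]
    refine Subgroup.commutator_mono ?_ ?_ <;>
    · rintro _ ⟨s, hs, rfl⟩
      exact ii_mem_O (hN.le hs)
  set K : Subgroup (E (prodForm Q Q')) := (N.map (ii U)).subgroupOf (E (prodForm Q Q')) with hK
  have hKmem : ∀ {x : E (prodForm Q Q')}, x ∈ K ↔ ∃ s ∈ N, ii U s = x := by
    intro x
    rw [hK, Subgroup.mem_subgroupOf, Subgroup.mem_map]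
  let eK : K ≃* N := (Subgroup.subgroupOfEquivOfLe hNE).trans (Subgroup.equivMapOfInjective N (ii U) ii_injective).symm
  have hKcard : Nat.card K = Nat.card N := Nat.card_congr eK.toEquiv
  have hKr : ¬ r ∣ Nat.card K := by
    rw [hKcard]
    intro h
    obtain ⟨s, hs⟩ := exists_prime_orderOf_dvd_card' (G := N) r h
    have h1 : (s : P ≃ₗ[F] P) = 1 := hss _ ⟨1, by
      rw [pow_one, ← hs]
      exact congrArg Subtype.val (pow_orderOf_eq_one s)⟩
    have h2 : s = 1 := Subtype.ext h1
    rw [h2, orderOf_one] at hs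
    exact hr.one_lt.ne hs
  obtain ⟨E₂, _, _, hE₂, ⟨e₂⟩⟩ := hN.iso
  have hq2 : 2 ≤ Nat.card F := Finite.one_lt_card
  have hE4 : 4 ≤ Fintype.card E₂ := by
    rw [hE₂]
    nlinarith
  have hsimp : IsSimpleGroup (Matrix.ProjectiveSpecialLinearGroup (Fin 2) E₂) :=
    Matrix.ProjectiveSpecialLinearGroup.rank_two_simple (by rwa [Nat.card_eq_fintype_card])
  have hcenP := center_bot_of_simple hsimp (H279.OZ.perfect_psl2 hE4)
  let e : K ≃* Matrix.ProjectiveSpecialLinearGroup (Fin 2) E₂ := eK.trans e₂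
  refine H279.OZ.cong_of_cover (c := c) (z := z') hπ hr hpp hrp hkc hcc hcr hcp hz'o τ ?_ ?_ K ?_ hKr ?_ ?_ ?_ ?_ ?_ ?_ ?_
  · rintro x ⟨i, hi⟩ hx
    have hxz := hmem.1 x.2
    have hx' : (x : E (prodForm Q Q')) ^ (r ^ i) = 1 := congrArg Subtype.val hi
    have h1 : aa (x : E (prodForm Q Q')) = 1 := congrArg Units.val hx
    exact Subtype.ext (hone _ hxz (haa1 _ hxz h1) (hss' _ hxz ⟨i, hx'⟩))
  · rintro x y ⟨i, hi⟩
    have hxz := hmem.1 x.2
    have hyz := hmem.1 y.2
    have hx' : (x : E (prodForm Q Q')) ^ (r ^ i) = 1 := congrArg Subtype.val hi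
    have h1 := hss' _ hxz ⟨i, hx'⟩
    have h2 := hT.comm (htO _ hxz) (htO _ hyz) (htz _ hxz) (htz _ hyz)
    apply Subtype.ext
    apply Subtype.ext
    show ((x : E (prodForm Q Q')) : (U × P) ≃ₗ[F] (U × P)) * ((y : E (prodForm Q Q')) : (U × P) ≃ₗ[F] (U × P)) =
      ((y : E (prodForm Q Q')) : (U × P) ≃ₗ[F] (U × P)) * ((x : E (prodForm Q Q')) : (U × P) ≃ₗ[F] (U × P))
    rw [hts _ hxz, hts _ hyz, h1]
    have h3 : ∀ (t t' : U ≃ₗ[F] U) (s s' : P ≃ₗ[F] P), t.prodCongr s * t'.prodCongr s' =
        (t * t').prodCongr (s * s') := fun _ _ _ _ => rfl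
    rw [h3, h3, h2.eq, one_mul, mul_one]
  · -- `K` commutes with `z`
    intro x hx
    obtain ⟨s, -, hs⟩ := hKmem.1 hx
    apply Subtype.ext
    show zz P z * (x : (U × P) ≃ₗ[F] (U × P)) = x * zz P z
    rw [← hs]
    rfl
  · -- `K ≠ 1`
    intro h
    have h1 : Nat.card K = 1 := by rw [h, Subgroup.card_bot]
    have h2 : Nat.card (Matrix.ProjectiveSpecialLinearGroup (Fin 2) E₂) = 1 := by
      rw [← Nat.card_congr e.toEquiv, h1]
    have h3 := hsimp.toNontrivial
    obtain ⟨a, ha⟩ := exists_ne (1 : Matrix.ProjectiveSpecialLinearGroup (Fin 2) E₂)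
    exact ha ((Nat.card_eq_one_iff_unique.1 h2).1.elim _ _)
  · -- the center
    intro x hx h
    have h1 : e ⟨x, hx⟩ ∈ center (Matrix.ProjectiveSpecialLinearGroup (Fin 2) E₂) := by
      rw [Subgroup.mem_center_iff]
      intro g
      obtain ⟨y, rfl⟩ := e.surjective g
      rw [← map_mul, ← map_mul]
      congr 1
      exact Subtype.ext (h y y.2).symm
    rw [hcenP, Subgroup.mem_bot, MulEquiv.map_eq_one_iff] at h1
    exact congrArg Subtype.val h1
  · -- the normalizer
    rintro n ⟨m, hm⟩ x hx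
    obtain ⟨s, hs, hsx⟩ := hKmem.1 hx
    have hm1 : (n : (U × P) ≃ₗ[F] (U × P)) * zz P z = zz P (z ^ m) * n := by
      have h1 : n * z' = z' ^ m * n := by rw [← hm]; group
      have h2 := congrArg Subtype.val h1
      rw [← zz_pow]
      exact h2
    have hzm : ∀ v, (z ^ m) v = v → v = 0 := by
      obtain ⟨a, ha, ha1, ha2⟩ := hT.cen (z ^ m) ((O Q).pow_mem hT.memO m) ((Commute.refl z).pow_left m)
      by_cases h : a = 1
      · exfalso
        have h1 := ha1 h
        rw [h1] at hm1
        have h2 : (n : (U × P) ≃ₗ[F] (U × P)) * zz P z = n * 1 := by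
          rw [hm1]
          have : zz P (1 : U ≃ₗ[F] U) = 1 := rfl
          rw [this, one_mul, mul_one]
        exact hz'1 (Subtype.ext (mul_left_cancel h2))
      · exact ha2 h
    obtain ⟨t, b, htb⟩ := block' hfix hzm hm1
    have hbO := (hOb (htb ▸ E_le_O n.2)).2
    refine hKmem.2 ⟨b * s * b⁻¹, ?_, ?_⟩
    · have h1 : b * s * b⁻¹ = ⁅b, s⁆ * s := by rw [commutatorElement_def]; group
      rw [h1]
      exact N.mul_mem (hN.comm b hbO s (hN.le hs)) hs
    · have h1 : ((n * x * n⁻¹ : E (prodForm Q Q')) : (U × P) ≃ₗ[F] (U × P)) =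
          (n : (U × P) ≃ₗ[F] (U × P)) * x * (n : (U × P) ≃ₗ[F] (U × P))⁻¹ := rfl
      rw [h1, eq_mul_inv_iff_mul_eq, ← hsx, htb]
      ext v
      · rfl
      · show b (s (b⁻¹ (b v.2))) = b (s v.2)
        rw [← LinearEquiv.mul_apply b⁻¹ b, inv_mul_cancel]
        rfl
  · -- the zeros
    exact H279.OZ.psl2_zero hE₂ hq2 e
  · -- the `p`-elements
    rintro x hx ⟨i, hi⟩
    obtain ⟨h1, h2⟩ := hpw x hx _ hi
    have h3 : aa x = 1 := by
      have h4 : aa x ^ p ^ i = 1 := by
        have hpow : ∀ k : ℕ, (tt x ^ k) (j 1) = j (aa x ^ k) := by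
          intro k
          induction k with
          | zero => simp
          | succ k ih =>
            rw [pow_succ', LinearEquiv.mul_apply, ih, haa x hx, pow_succ']
        have h5 := hpow (p ^ i)
        rw [h1] at h5
        exact (hT.inj h5).symm
      have h5 : (aa x - 1) ^ p ^ i = 0 := by rw [sub_pow_char_pow, one_pow, h4, sub_self]
      exact sub_eq_zero.1 (pow_eq_zero_iff (pow_pos hpp.pos i).ne' |>.1 h5)
    have h4 := haa1 x hx h3
    have hxs : (x : (U × P) ≃ₗ[F] (U × P)) = ii U (ss x) := by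
      rw [hts x hx, h4]
      rfl
    refine hKmem.2 ⟨ss x, ?_, hxs.symm⟩
    have hsxO := hsO x hx
    by_cases hp2 : p = 2
    · -- characteristic two
      have h20 : (2 : F) = 0 := by
        have := CharP.cast_eq_zero F p
        rw [hp2] at this
        exact_mod_cast this
      obtain ⟨ta, hta, hodd, hall⟩ := hN.even h20
      rcases hall _ hsxO with h | ⟨n, hn, h⟩
      · exact h
      · exfalso
        have h5 : ii U ta ∈ E (prodForm Q Q') := by
          have h6 : ii U ta = (ii U n)⁻¹ * (x : (U × P) ≃ₗ[F] (U × P)) := by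
            rw [hxs, h, map_mul, inv_mul_cancel_left]
          rw [h6]
          exact mul_mem (inv_mem (hNE ⟨n, hn, rfl⟩)) x.2
        have h6 := even_E hnd h5
        have h7 : fix (ii U ta) = (⊤ : Submodule F U).prod (fix ta) := by
          ext v
          rw [mem_fix, ii_apply, Submodule.mem_prod, mem_fix]
          constructor
          · intro h
            exact ⟨Submodule.mem_top, congrArg Prod.snd h⟩
          · rintro ⟨-, h⟩
            exact Prod.ext rfl h
        have h8 : finrank F ((⊤ : Submodule F U).prod (fix ta) : Submodule F (U × P)) =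
            finrank F U + finrank F (fix ta) := by
          have e : ((⊤ : Submodule F U).prod (fix ta) : Submodule F (U × P)) ≃ₗ[F] U × fix ta :=
            { toFun := fun v => (v.1.1, ⟨v.1.2, v.2.2⟩)
              invFun := fun v => ⟨(v.1, v.2.1), ⟨Submodule.mem_top, v.2.2⟩⟩
              map_add' := fun _ _ => rfl
              map_smul' := fun _ _ => rfl
              left_inv := fun _ => rfl
              right_inv := fun _ => rfl }
          rw [e.finrank_eq, finrank_prod]
        rw [h7, h8, finrank_prod] at h6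
        obtain ⟨a1, ha1⟩ := hUe
        obtain ⟨a2, ha2⟩ := hPe
        obtain ⟨a3, ha3⟩ := h6
        obtain ⟨a4, ha4⟩ := hodd
        omega
    · -- odd characteristic
      have hpo : Odd (p ^ i) := (hpp.odd_of_ne_two hp2).pow
      obtain ⟨m, hm⟩ := hpo
      have h5 : ss x = ss x ^ (m + 1) * ss x ^ (m + 1) := by
        rw [← pow_add, show m + 1 + (m + 1) = p ^ i + 1 by omega, pow_succ, h2, one_mul]
      rw [h5]
      exact hN.sq _ ((O Q').pow_mem hsxO _)
  · -- `hnot`
    rintro ⟨h1, h2⟩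
    refine hnot ⟨fun x hx hxN => h1 x hx fun y hy => ?_, ?_⟩
    · obtain ⟨s, hs, hsy⟩ := hKmem.1 hy
      apply Subtype.ext
      show (x : (U × P) ≃ₗ[F] (U × P)) * y = y * x
      rw [← hsy]
      exact hxN s hs
    -- the eigenvalues
    have hjj : Function.Injective ((LinearMap.inl F U P).comp j) := fun a b hab => hT.inj (congrArg Prod.fst hab)
    refine le_of_roots (L := L) (zz P z).toLinearMap hT.ord ?_
    intro m hm0 hm
    have hrm : ¬ r ∣ m := fun h => absurd (Nat.le_of_dvd hm0 h) (not_le.2 hm)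
    obtain ⟨g, hg⟩ := isConj_iff.1 (h2 m hrm)
    have hg' : (g : (U × P) ≃ₗ[F] (U × P)) * zz P z * (g : (U × P) ≃ₗ[F] (U × P))⁻¹ = zz P z ^ m :=
      congrArg Subtype.val hg
    have h3 : (zz P z ^ m).toLinearMap.charpoly = (zz P z).toLinearMap.charpoly := by
      rw [← hg']
      exact LinearEquiv.charpoly_conj (g : (U × P) ≃ₗ[F] (U × P)) (zz P z).toLinearMap
    rw [← h3]
    refine root_charpoly _ (lam ^ m) ((LinearMap.inl F U P).comp j) hjj ?_
    have hpow : ∀ (k : ℕ) (l : L), (zz P z ^ k) (j l, 0) = (j (lam ^ k * l), 0) := by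
      intro k
      induction k with
      | zero => intro l; simp
      | succ k ih =>
        intro l
        have h4 : zz P z (j l, 0) = (j (lam * l), 0) := Prod.ext (hT.eig l) rfl
        rw [pow_succ, LinearEquiv.mul_apply, h4, ih, pow_succ, mul_assoc]
    exact fun l => hpow m l
  · -- the number of `p`-elements
    rw [← hk]
    refine Nat.card_congr (eK.toEquiv.subtypeEquiv fun v => ?_)
    have h1 : orderOf (eK v) = orderOf v := orderOf_injective eK.toMonoidHom eK.injective v
    show (∃ i, orderOf v = p ^ i) ↔ ∃ i, orderOf (eK v) = p ^ i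
    rw [h1]

end main

end Cfsg.Agent.H530.OZ
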