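import Cfsg.Agent.H530.OZ.KCGeo
import Cfsg.Agent.H279.OZ.OmFour
import Cfsg.Agent.H530.OZ.Row

/-!
# S4842: the congruence of the primes of order `2(n-2)` for `POmega⁺_{2n}` (helper530)

* `kc_plus` : `Cong p r (4 f) S`.
-/

set_option autoImplicit false

namespace Cfsg.Agent.H530.OZ

open Module QuadraticMap Cfsg Subgroup
open Cfsg.Agent.LieClassical.OrthCore Cfsg.Agent.LieClassical.OrthTrans Cfsg.Agent.H890.SpParity
open Cfsg.Agent.LieClassical.OrthFinite Cfsg.Agent.LieClassical.OrthForms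
open Cfsg.Agent.H182.Sign Cfsg.Agent.H182.Orth Cfsg.Agent.H530.CJ Cfsg.Agent.H93.CJ Cfsg.Agent.H93.PReg

universe u

theorem numKC {q k r : ℕ} (hq : 2 ≤ q) (hk : 4 ≤ k) (hr : r.Prime)
    (hle : r ≤ 2 * (k + 2) + 1) (h2 : q ^ k + 1 ∣ 2 * r) : False := by
  have hr0 : 0 < r := hr.pos
  have hq2 : 2 ^ k ≤ q ^ k := Nat.pow_le_pow_left hq k
  rcases Nat.even_or_odd q with he | ho
  · have h5 : q ^ k + 1 ∣ r := dvd_of_even (a := 1) (by omega) he (by rwa [pow_one])
    have h6 := Nat.le_of_dvd hr0 h5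
    have h7 : 2 * k + 5 < 2 ^ k + 1 := by
      have := num1 hk
      have h8 : 2 * k + 4 < 2 ^ k := by
        clear * - hk
        induction k, hk using Nat.le_induction with
        | base => norm_num
        | succ k hk ih => rw [pow_succ]; omega
      omega
    omega
  · have hq3 : 3 ≤ q := by
      rcases ho with ⟨m, hm⟩
      omega
    have h7 : 3 ^ k ≤ q ^ k := Nat.pow_le_pow_left hq3 k
    have h8 := num3 hk
    have := Nat.le_of_dvd (by omega) h2
    omega

/-- **The congruence.** -/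
theorem kc_plus {S : Type u} [Group S] [Finite S] {F : Type} [Field F] [Fintype F] {n : ℕ} (hn : 6 ≤ n)
    (e : S ≃* POmega F (quadFormPlus n F)) :
    ∀ (p f r : ℕ), p.Prime → Fintype.card F = p ^ f → Prim p (2 * (n - 2) * f) r → H730.OZ.Cong p r (4 * f) S := by
  intro p f r hp hcard hprim
  have hf : 0 < f := by
    rcases Nat.eq_zero_or_pos f with rfl | h
    · have := Fintype.one_lt_card (α := F)
      rw [hcard, pow_zero] at this
      omega
    · exact h
  have hfp : Fact p.Prime := ⟨hp⟩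
  have hch : CharP F p := by
    obtain ⟨p', hch⟩ := CharP.exists F
    obtain ⟨⟨f', hf'⟩, hp', hcard'⟩ := FiniteField.card F p'
    have h1 : p ∣ p' ^ f' := by
      have h2 : Fintype.card F = p' ^ f' := hcard'
      rw [← h2, hcard]
      exact dvd_pow_self p hf.ne'
    have h3 := (Nat.prime_dvd_prime_iff_eq hp hp').1 (hp.dvd_of_dvd_pow h1)
    rwa [h3]
  obtain ⟨k, rfl⟩ : ∃ k, n = k + 2 := ⟨n - 2, by omega⟩
  rw [show k + 2 - 2 = k by omega] at hprim
  have hk : 4 ≤ k := by omega
  obtain ⟨hr1, hr2⟩ := hprim.conds hf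
  have hr := hprim.prime
  have hrp := hprim.ne
  rw [← hcard] at hr1
  have hcF : Nat.card F = Fintype.card F := Nat.card_eq_fintype_card
  have hF : 2 ≤ Fintype.card F := Fintype.one_lt_card
  obtain ⟨L, _, _, _, Q, u, hQ, hu, huQ⟩ := exists_torusM F (k := k) (by omega)
  obtain ⟨P, _, _, _, Q', N, hQ', hN⟩ := exists_four F
  have i : POmega F ⇑(plusForm (k + 2) F) ≃* S := by
    rw [coe_plusForm]
    exact e.symm
  have hR : Sg (plusForm (k + 2) F) (k + 2) (-1 * -1) := by simpa using sg_plusForm (F := F) (k + 2)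
  obtain ⟨hG, π, hπ, hker⟩ := exists_pi' (hQ.prod hQ') (by omega) hR i
  have hdL : finrank F L = 2 * k := hQ.dim
  have hdP : finrank F P = 2 * 2 := hQ'.dim
  have hu0 : u ≠ 0 := by
    rintro rfl
    have h1 := pow_orderOf_eq_one (0 : L)
    rw [hu, pow_succ, mul_zero] at h1
    exact zero_ne_one h1
  obtain ⟨s, hs⟩ := hr1
  have hs0 : s ≠ 0 := by
    rintro rfl
    omega
  set lam : L := u ^ s with hlam
  have hlam0 : lam ≠ 0 := pow_ne_zero _ hu0
  have hlamo : orderOf lam = r := by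
    rw [hlam, orderOf_pow_of_dvd hs0 (by rw [hu, hs]; exact Dvd.intro_left r rfl), hu, hs,
      Nat.mul_div_cancel _ (Nat.pos_of_ne_zero hs0)]
  have hpowQ : ∀ (m : ℕ) (v : L), Q (u ^ m * v) = Q v := by
    intro m
    induction m with
    | zero => intro v; rw [pow_zero, one_mul]
    | succ m ih => intro v; rw [pow_succ', mul_assoc, huQ, ih]
  have hT := torU_minus hlam0 hlamo (by
    intro i hi hi2
    rw [hcF, hcard]
    rw [hdL] at hi2
    exact hr2 i hi hi2) (hpowQ s)
  have hr2' : r ≠ 2 := by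
    rintro rfl
    rcases Nat.even_or_odd (Fintype.card F) with h | h
    · have h1 : Odd (Fintype.card F ^ k + 1) := (h.pow_of_ne_zero (by omega)).add_one
      rw [hs] at h1
      exact (Nat.not_odd_iff_even.2 (even_two_mul s)) h1
    · have h1 := hr2 1 one_pos (by omega)
      rw [pow_one, ← hcard] at h1
      exact h1 (Nat.Odd.sub_odd h odd_one).two_dvd
  have hodd : Odd r := hr.odd_of_ne_two hr2'
  obtain ⟨E₂, _, _, hE₂, ⟨e₂⟩⟩ := hN.iso
  have hchE : CharP E₂ p := by
    obtain ⟨p', hch⟩ := CharP.exists E₂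
    obtain ⟨⟨f', hf'⟩, hp', hcard'⟩ := FiniteField.card E₂ p'
    have h1 : p ∣ p' ^ f' := by
      have h2 : Fintype.card E₂ = p' ^ f' := hcard'
      rw [← h2, hE₂, hcF, hcard, ← pow_mul]
      exact dvd_pow_self p (by omega)
    have h3 := (Nat.prime_dvd_prime_iff_eq hp hp').1 (hp.dvd_of_dvd_pow h1)
    rwa [h3]
  refine kc_orth (p := p) hr hrp hr2' hT (hQ.prod hQ').nondeg hG (by rw [hdL]; exact even_two_mul k)
    (by rw [hdP]; exact even_two_mul 2) ?_ (mem_of_odd hG hT.memO hodd hT.pow_eq) π hπ hker hN ?_ ?_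
  · intro t ht
    refine eq_one_of_order4 (F := F) hr hdP ?_ ?_ ht
    · rw [hcF]
      intro h1
      have h2 : r ∣ 1 := (Nat.dvd_add_right (Dvd.dvd.pow h1 (by omega : k ≠ 0))).1 ⟨s, hs⟩
      exact hr.one_lt.ne' (Nat.dvd_one.1 h2)
    · intro i hi hi2
      rw [hcF, hcard]
      exact hr2 i hi (by omega)
  · rintro ⟨h1, h2⟩
    have hmO : mulL F u hu0 ∈ O Q := huQ
    have h3 := h1 ⟨zz P (mulL F u hu0 ^ 2), sq_mem hG hmO⟩ (by
      apply Subtype.ext
      show zz P (mulL F lam hlam0) * zz P (mulL F u hu0 ^ 2) = zz P (mulL F u hu0 ^ 2) * zz P (mulL F lam hlam0)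
      refine LinearEquiv.ext fun v => Prod.ext ?_ rfl
      show lam * (u * (u * v.1)) = u * (u * (lam * v.1))
      ring) (fun t ht => rfl)
    have hnt : Nontrivial L := inferInstance
    have hnt' : Nontrivial (L × P) := inferInstance
    obtain ⟨a, ha2, ha, haP⟩ := scal hker (hQ.prod hQ').nondeg hnt' _ h3
    have hpw : ∀ (m : ℕ) (v : L), (mulL F u hu0 ^ m) v = u ^ m * v := by
      intro m
      induction m with
      | zero => intro v; rw [pow_zero, pow_zero, one_mul]; rfl
      | succ m ih =>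
        intro v
        rw [pow_succ', LinearEquiv.mul_apply, ih, mulL_apply, pow_succ', mul_assoc]
    have h4 : u ^ (2 * r) = a • (1 : L) := by
      have h5 := ha 1
      rw [← pow_mul, hpw, mul_one] at h5
      exact h5
    refine numKC hF hk hr ?_ ?_
    · rw [finrank_prod, hdL, hdP] at h2
      omega
    · rw [← hu]
      apply orderOf_dvd_of_pow_eq_one
      rw [h4, haP (Module.nontrivial_of_finrank_pos (R := F) (by rw [hdP]; omega)), one_smul]
  · have h1 := H279.OZ.count_psl (p := p) (f := f * 2) (by omega) (by rw [hE₂, hcF, hcard, ← pow_mul]) e₂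
    rw [h1]
    congr 1
    ring

end Cfsg.Agent.H530.OZ
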